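import Cfsg.Agent.Lib.Helper21.AvgChar
import Cfsg.Agent.Lib.Helper21.KeyLemma
import Cfsg.Agent.Lib.Helper81.Heights
import Cfsg.Agent.Lib.Helper81.Contrib
import Cfsg.Agent.Lib.Helper81.BlockOrth
import Cfsg.Agent.Lib.Helper84.BlockQuot
import Cfsg.Agent.S4491

set_option autoImplicit false
open Cfsg
open scoped ComplexConjugate
open Cfsg.Agent.Lib.Helper20 Cfsg.Agent.Lib.Helper81 Cfsg.Agent.Lib.Helper21

namespace Cfsg.Agent.Lib.Helper84


/-- Orbit-wise induction for sums of invariant functions. -/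
theorem sum_orbit_induction {Γ X : Type*} [Group Γ] [MulAction Γ X] [Fintype X]
    (f : X → ℂ) (hf : ∀ (γ : Γ) (x : X), f (γ • x) = f x) (I : ℂ → Prop) (h0 : I 0)
    (hadd : ∀ s t, I s → I t → I (s + t))
    (h : ∀ x, I ((Nat.card (MulAction.orbit Γ x) : ℂ) * f x)) : I (∑ x, f x) := by
  classical
  let Ω := MulAction.orbitRel.Quotient Γ X
  have : Fintype Ω := Fintype.ofFinite _
  let π : X → Ω := fun x => Quotient.mk'' x
  rw [← Finset.sum_fiberwise Finset.univ π f]
  apply Finset.sum_induction _ I hadd h0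
  intro ω _
  obtain ⟨x, rfl⟩ : ∃ x, π x = ω := Quotient.exists_rep ω
  have h1 : ∀ y ∈ Finset.univ.filter (fun y => π y = π x), f y = f x := by
    intro y hy
    have hy' : π y = π x := (Finset.mem_filter.1 hy).2
    have : y ∈ MulAction.orbit Γ x := MulAction.orbitRel_apply.1 (Quotient.exact hy')
    obtain ⟨γ, rfl⟩ := this
    exact hf γ x
  rw [Finset.sum_congr rfl h1, Finset.sum_const, nsmul_eq_mul]
  have h2 : (Finset.univ.filter (fun y => π y = π x)).card = Nat.card (MulAction.orbit Γ x) := by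
    rw [Nat.card_eq_fintype_card, ← Set.toFinset_card]
    congr 1
    ext y
    simp only [Finset.mem_filter, Finset.mem_univ, true_and, Set.mem_toFinset]
    constructor
    · intro hy
      exact MulAction.orbitRel_apply.1 (Quotient.exact hy)
    · intro hy
      exact Quotient.sound (MulAction.orbitRel_apply.2 hy)
  rw [h2]
  exact h x



variable {G : Type*} [Group G]

/-- `P ∩ c P c⁻¹`. -/
abbrev interConj (P : Subgroup G) (c : G) : Subgroup G :=
  P ⊓ P.map (MulAut.conj c).toMonoidHom

theorem mem_interConj {P : Subgroup G} {c u : G} :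
    u ∈ interConj P c ↔ u ∈ P ∧ c⁻¹ * u * c ∈ P := by
  rw [interConj, Subgroup.mem_inf]
  constructor
  · rintro ⟨h1, v, hv, rfl⟩
    refine ⟨h1, ?_⟩
    simpa [mul_assoc] using hv
  · rintro ⟨h1, h2⟩
    exact ⟨h1, _, h2, by simp [mul_assoc]⟩

/-- The action of `P ∩ c P c⁻¹` on `P` corresponding to conjugation on the coset `c P`. -/
@[instance_reducible] def cosetAction (P : Subgroup G) (c : G) : MulAction (interConj P c) P where
  smul u w := ⟨c⁻¹ * u * c * w * (u : G)⁻¹,
    P.mul_mem (P.mul_mem (mem_interConj.1 u.2).2 w.2) (P.inv_mem (mem_interConj.1 u.2).1)⟩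
  one_smul w := by
    apply Subtype.ext
    show c⁻¹ * ((1 : interConj P c) : G) * c * w * ((1 : interConj P c) : G)⁻¹ = w
    simp
  mul_smul u v w := by
    apply Subtype.ext
    show c⁻¹ * ((u * v : interConj P c) : G) * c * w * ((u * v : interConj P c) : G)⁻¹ =
      c⁻¹ * u * c * (c⁻¹ * v * c * w * (v : G)⁻¹) * (u : G)⁻¹
    simp only [Subgroup.coe_mul]
    group

theorem cosetAction_smul (P : Subgroup G) (c : G) (u : interConj P c) (w : P) :
    letI := cosetAction P c
    c * ((u • w : P) : G) = u * (c * w) * (u : G)⁻¹ := by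
  show c * (c⁻¹ * u * c * w * (u : G)⁻¹) = _
  group

variable [Fintype G] {p : ℕ} {M : Ideal AlgInt}



/-- `p ^ d · a_B(z) / |Q|` is a local integer, for a `p`-subgroup `Q` centralising `z`. -/
theorem blockCoeff_mul_pow_div_card (hM : IsPModular p M) (B : Set (IrrCharacter G))
    (hB : IsPBlock M B) (z : G) (Q : Subgroup G) (hQ : IsPGroup p Q)
    (hz : ∀ u ∈ Q, u * z = z * u) :
    MemLocalRing M (blockCoeff B z * (p : ℂ) ^ (blockDefect p B) / (Nat.card Q : ℂ)) := by
  classical
  have : Finite (IrrCharacter G) := finite_irrCharacter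
  have : Fintype (IrrCharacter G) := Fintype.ofFinite _
  have : Fintype Q := Fintype.ofFinite _
  have hp := hM.1
  have : Fact p.Prime := ⟨hp⟩
  by_cases hs : p ∣ orderOf z
  · rw [blockCoeff_eq_zero_of_singular hM B hB hs]
    simp only [zero_mul, zero_div]
    exact memLocalRing_zero hM
  have key : ∑ u : Q, blockCoeff B ((u : G) * z) = blockCoeff B z := by
    rw [Finset.sum_eq_single (1 : Q)]
    · simp
    · intro u _ hu
      apply blockCoeff_eq_zero_of_singular hM B hB
      obtain ⟨k, hk⟩ := (IsPGroup.iff_orderOf.1 hQ) u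
      rw [← Subgroup.orderOf_coe] at hk
      have hk0 : k ≠ 0 := by
        rintro rfl
        rw [pow_zero, orderOf_eq_one_iff] at hk
        exact hu (Subtype.ext hk)
      have hcop : Nat.Coprime (orderOf (u : G)) (orderOf z) := by
        rw [hk]
        exact Nat.Coprime.pow_left k ((Nat.Prime.coprime_iff_not_dvd hp).2 hs)
      have hcomm : Commute (u : G) z := hz u u.2
      rw [hcomm.orderOf_mul_eq_mul_orderOf_of_coprime hcop, hk]
      exact Dvd.dvd.mul_right (dvd_pow_self p hk0) _
    · intro h; exact absurd (Finset.mem_univ _) h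
  have hQ0 : (Nat.card Q : ℂ) ≠ 0 := by exact_mod_cast Nat.card_pos.ne'
  have hG0 : (Nat.card G : ℂ) ≠ 0 := card_ne_zero_complex
  have h1 : blockCoeff B z * (p : ℂ) ^ (blockDefect p B) / (Nat.card Q : ℂ) =
      ∑ χ : IrrCharacter G, if χ ∈ B then
        (((charDegree (χ : G → ℂ) * p ^ blockDefect p B : ℕ) : ℂ) / (Nat.card G : ℕ)) *
          ((Nat.card Q : ℂ)⁻¹ * ∑ u : Q, (χ : G → ℂ) ((u : G) * z⁻¹)) else 0 := by
    rw [← key]
    simp only [blockCoeff, finsum_mem_irr]
    rw [← Finset.mul_sum, Finset.sum_comm, Finset.mul_sum, Finset.sum_mul, Finset.sum_div]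
    apply Finset.sum_congr rfl; intro χ _
    by_cases hχ : χ ∈ B
    · simp only [if_pos hχ]
      have h2 : ∑ u : Q, (χ : G → ℂ) 1 * conj ((χ : G → ℂ) ((u : G) * z)) =
          (χ : G → ℂ) 1 * ∑ u : Q, (χ : G → ℂ) ((u : G) * z⁻¹) := by
        rw [Finset.mul_sum, ← Equiv.sum_comp (Equiv.inv Q)]
        apply Finset.sum_congr rfl; intro u _
        rw [← isCharacter_inv (isCharacter_of_isIrrCharacter χ.2)]
        congr 2
        simp only [Equiv.inv_apply, Subgroup.coe_inv, mul_inv_rev, inv_inv]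
        have := hz u u.2
        have h3 : Commute (u : G) z := this
        rw [(h3.inv_right).eq.symm]
      rw [h2, irr_one_eq]
      push_cast
      field_simp
    · simp [if_neg hχ]
  rw [h1]
  apply memLocalRing_sum hM
  intro χ _
  by_cases hχ : χ ∈ B
  · rw [if_pos hχ]
    apply memLocalRing_mul hM
    · apply memLocalRing_natCast_div hM
        (mul_ne_zero (charDegree_ne_zero χ) (pow_ne_zero _ hp.ne_zero)) Nat.card_pos.ne'
      rw [Nat.factorization_mul (charDegree_ne_zero χ) (pow_ne_zero _ hp.ne_zero),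
        Nat.factorization_pow]
      have h3 := blockDefect_add (p := p) (B := B) ⟨χ, hχ⟩
      have h4 := minDeg_le (p := p) hχ
      have h5 : (Nat.factorization p) p = 1 := hp.factorization_self
      simp only [Finsupp.coe_add, Finsupp.coe_smul, Pi.add_apply, Pi.smul_apply, h5, smul_eq_mul,
        mul_one]
      unfold nuDeg at h4
      omega
    · apply memLocalRing_of_isIntegral hM
      apply isIntegral_avg_char (isCharacter_of_isIrrCharacter χ.2) Q z⁻¹
      intro u hu
      have h3 : Commute u z := hz u hu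
      exact h3.inv_right.eq
  · rw [if_neg hχ]; exact memLocalRing_zero hM


theorem coset_sum_memLocalRing (hM : IsPModular p M) (P : Subgroup G) [Fintype P]
    (hP : IsPGroup p P) (c : G) (d : ℕ) (φ : G → ℂ) (hφ : IsClassFunction G φ)
    (hV : ∀ (z : G) (Q : Subgroup G), IsPGroup p Q → (∀ u ∈ Q, u * z = z * u) →
      MemLocalRing M (φ z * (p : ℂ) ^ d / (Nat.card Q : ℂ))) :
    MemLocalRing M ((∑ w : P, φ (c * w)) * (p : ℂ) ^ d / (Nat.card (interConj P c) : ℂ)) := by
  classical
  let _ := cosetAction P c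
  apply sum_orbit_induction (Γ := interConj P c) (fun w : P => φ (c * w)) _
    (fun t => MemLocalRing M (t * (p : ℂ) ^ d / (Nat.card (interConj P c) : ℂ)))
  · simp only [zero_mul, zero_div]; exact memLocalRing_zero hM
  · intro s t hs ht
    have : (s + t) * (p : ℂ) ^ d / (Nat.card (interConj P c) : ℂ) =
        s * (p : ℂ) ^ d / (Nat.card (interConj P c) : ℂ) +
        t * (p : ℂ) ^ d / (Nat.card (interConj P c) : ℂ) := by ring
    rw [this]; exact memLocalRing_add hM hs ht
  · intro w
    have h1 : Nat.card (MulAction.orbit (interConj P c) w) *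
        Nat.card (MulAction.stabilizer (interConj P c) w) = Nat.card (interConj P c) := by
      rw [Nat.card_congr (MulAction.orbitEquivQuotientStabilizer _ w),
        ← Subgroup.card_eq_card_quotient_mul_card_subgroup]
    set St := MulAction.stabilizer (interConj P c) w with hSt
    have h2 := hV (c * w) (St.map (interConj P c).subtype)
      ((hP.to_le inf_le_left).to_subgroup St |>.map _) ?_
    · rw [Subgroup.card_map_of_injective (Subgroup.subtype_injective _)] at h2
      convert h2 using 1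
      rw [← h1]
      have h3 : (Nat.card St : ℂ) ≠ 0 := by exact_mod_cast Nat.card_pos.ne'
      have h4 : (Nat.card (MulAction.orbit (interConj P c) w) : ℂ) ≠ 0 := by
        have : Nonempty (MulAction.orbit (interConj P c) w) := ⟨⟨w, MulAction.mem_orbit_self w⟩⟩
        exact_mod_cast Nat.card_pos.ne'
      push_cast
      field_simp
    · rintro _ ⟨u, hu, rfl⟩
      have h3 : u • w = w := hu
      have h4 := cosetAction_smul P c u w
      rw [h3] at h4
      show (u : G) * (c * w) = c * w * u
      exact mul_inv_eq_iff_eq_mul.1 h4.symm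
  · intro u w
    show φ (c * ((u • w : P) : G)) = φ (c * w)
    rw [cosetAction_smul, hφ]

theorem exists_fixed_of_coset_sum (hM : IsPModular p M) (P : Subgroup G) [Fintype P]
    (hP : IsPGroup p P) (c : G) (φ : G → ℂ) (hφ : IsClassFunction G φ)
    (hR : ∀ z, MemLocalRing M (φ z)) (h : ¬ MemLocalIdeal M (∑ w : P, φ (c * w))) :
    ∃ w : P, (∀ u ∈ interConj P c, u * (c * w) = c * w * u) ∧ ¬ MemLocalIdeal M (φ (c * w)) := by
  classical
  by_contra hcon
  push Not at hcon
  apply h
  let _ := cosetAction P c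
  apply sum_orbit_induction (Γ := interConj P c) (fun w : P => φ (c * w)) _
    (fun t => MemLocalIdeal M t) (memLocalIdeal_zero hM) (fun s t => memLocalIdeal_add hM)
  · intro w
    by_cases hw : MemLocalIdeal M (φ (c * w))
    · exact memLocalIdeal_mul_left hM (memLocalRing_natCast hM _) hw
    · apply memLocalIdeal_mul_right hM _ (hR _)
      rw [memLocalIdeal_natCast_iff hM]
      have h1 : Nat.card (MulAction.orbit (interConj P c) w) *
          Nat.card (MulAction.stabilizer (interConj P c) w) = Nat.card (interConj P c) := by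
        rw [Nat.card_congr (MulAction.orbitEquivQuotientStabilizer _ w),
          ← Subgroup.card_eq_card_quotient_mul_card_subgroup]
      have hQ : IsPGroup p (interConj P c) := hP.to_le inf_le_left
      have : Fact p.Prime := ⟨hM.1⟩
      obtain ⟨j, hj⟩ := IsPGroup.iff_card.1 hQ
      have h2 : Nat.card (MulAction.orbit (interConj P c) w) ∣ p ^ j := by
        rw [← hj, ← h1]; exact Dvd.intro _ rfl
      obtain ⟨i, -, hi⟩ := (Nat.dvd_prime_pow hM.1).1 h2
      rw [hi]
      apply dvd_pow_self
      rintro rfl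
      rw [pow_zero] at hi
      apply hw
      apply hcon w
      intro u hu
      have h3 : Subsingleton (MulAction.orbit (interConj P c) w) :=
        (Nat.card_eq_one_iff_unique.1 hi).1
      have h4 : (⟨u, hu⟩ : interConj P c) • w = w := by
        have := h3.elim ⟨_, MulAction.mem_orbit w (⟨u, hu⟩ : interConj P c)⟩
          ⟨w, MulAction.mem_orbit_self w⟩
        exact congrArg Subtype.val this
      have h5 := cosetAction_smul P c ⟨u, hu⟩ w
      rw [h4] at h5
      exact mul_inv_eq_iff_eq_mul.1 h5.symm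
  · intro u w
    show φ (c * ((u • w : P) : G)) = φ (c * w)
    rw [cosetAction_smul, hφ]


/-- the sum of `φ` over the left coset `c P`. -/
noncomputable def cosetSum (P : Subgroup G) [Fintype P] (φ : G → ℂ) (c : G) : ℂ :=
  ∑ w : P, φ (c * w)

omit [Fintype G] in
theorem cosetSum_mul_right (P : Subgroup G) [Fintype P] (φ : G → ℂ) (c : G) (v : P) :
    cosetSum P φ (c * v) = cosetSum P φ c := by
  unfold cosetSum
  rw [← Equiv.sum_comp (Equiv.mulLeft v) (fun w : P => φ (c * w))]
  apply Finset.sum_congr rfl; intro w _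
  simp [mul_assoc]

omit [Fintype G] in
theorem cosetSum_mul_left (P : Subgroup G) [Fintype P] {φ : G → ℂ} (hφ : IsClassFunction G φ)
    (c : G) (u : P) : cosetSum P φ (u * c) = cosetSum P φ c := by
  unfold cosetSum
  rw [← Equiv.sum_comp (Equiv.mulRight u) (fun w : P => φ (c * w))]
  apply Finset.sum_congr rfl; intro w _
  have := hφ (c * (w * u : P)) u
  simp only [Equiv.coe_mulRight]
  rw [← this]
  congr 1
  simp only [Subgroup.coe_mul]
  group

/-- `∑_c (∑_{cP} a(y⁻¹)) (∑_{cP} a(z)) = |P| a(1)`. -/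
theorem sum_cosetSum_blockCoeff (hM : IsPModular p M) (B : Set (IrrCharacter G))
    (hB : IsPBlock M B) (P : Subgroup G) [Fintype P] (hP : IsPGroup p P) :
    ∑ c : G, cosetSum P (fun x => blockCoeff B x⁻¹) c * cosetSum P (blockCoeff B) c =
      (Nat.card P : ℂ) * blockCoeff B 1 := by
  classical
  have : Fact p.Prime := ⟨hM.1⟩
  have h1 : ∀ w w' : P, ∑ c : G, blockCoeff B (c * w)⁻¹ * blockCoeff B (c * w') =
      blockCoeff B ((w : G)⁻¹ * w') := by
    intro w w'
    have h0 := Equiv.sum_comp ((Equiv.mulRight (w : G)).trans (Equiv.inv G))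
      (fun g => blockCoeff B g * blockCoeff B (g⁻¹ * ((w : G)⁻¹ * w')))
    have h00 : blockCoeff B ((w : G)⁻¹ * w') =
        ∑ g, blockCoeff B g * blockCoeff B (g⁻¹ * ((w : G)⁻¹ * w')) := by
      conv_lhs => rw [← conv_blockCoeff_self B]
      rfl
    rw [h00, ← h0]
    apply Finset.sum_congr rfl; intro c _
    simp only [Equiv.trans_apply, Equiv.coe_mulRight, Equiv.inv_apply, inv_inv]
    congr 2
    group
  have h2 : ∀ w : P, ∑ w' : P, blockCoeff B ((w : G)⁻¹ * w') = blockCoeff B 1 := by
    intro w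
    rw [Finset.sum_eq_single w]
    · simp
    · intro w' _ hw'
      apply blockCoeff_eq_zero_of_singular hM B hB
      obtain ⟨k, hk⟩ := (IsPGroup.iff_orderOf.1 hP) (w⁻¹ * w')
      rw [← Subgroup.orderOf_coe] at hk
      have : ((w⁻¹ * w' : P) : G) = (w : G)⁻¹ * w' := rfl
      rw [this] at hk
      rw [hk]
      apply dvd_pow_self
      rintro rfl
      rw [pow_zero, orderOf_eq_one_iff] at hk
      apply hw'
      apply Subtype.ext
      exact (inv_mul_eq_one.1 hk).symm
    · intro h; exact absurd (Finset.mem_univ _) h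
  simp only [cosetSum, Finset.sum_mul_sum]
  rw [Finset.sum_comm]
  have h3 : ∀ w : P, ∑ c : G, ∑ w' : P, blockCoeff B (c * w)⁻¹ * blockCoeff B (c * w') =
      blockCoeff B 1 := by
    intro w
    rw [Finset.sum_comm, ← h2 w]
    exact Finset.sum_congr rfl (fun w' _ => h1 w w')
  rw [Finset.sum_congr rfl (fun w _ => h3 w), Finset.sum_const, Finset.card_univ,
    nsmul_eq_mul, Nat.card_eq_fintype_card]

/-- `a_B(1) / p ^ (a - d)` is a local unit. -/
theorem not_memLocalIdeal_blockCoeff_one [Fact p.Prime] (hM : IsPModular p M)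
    (B : Set (IrrCharacter G)) (hB : IsPBlock M B) :
    ¬ MemLocalIdeal M (blockCoeff B 1 /
      (p : ℂ) ^ ((Nat.card G).factorization p - blockDefect p B)) := by
  have hp := hM.1
  have h1 := Cfsg.Agent.S4491.result p M hM B hB
  have h2 : blockCoeff B 1 / (p : ℂ) ^ ((Nat.card G).factorization p - blockDefect p B) =
      ((sqDegSum B : ℕ) : ℂ) /
        ((Nat.card G * p ^ ((Nat.card G).factorization p - blockDefect p B) : ℕ) : ℂ) := by
    rw [blockCoeff_one]
    push_cast
    have hG0 : (Nat.card G : ℂ) ≠ 0 := card_ne_zero_complex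
    have hp0 : (p : ℂ) ≠ 0 := by exact_mod_cast hp.ne_zero
    field_simp
  rw [h2, memLocalIdeal_natCast_div_iff hM (sqDegSum_pos (isPBlock_nonempty hM hB)).ne'
    (mul_ne_zero Nat.card_pos.ne' (pow_ne_zero _ hp.ne_zero))]
  have h3 : (sqDegSum B).factorization p =
      2 * (Nat.card G).factorization p - blockDefect p B := h1
  rw [h3, Nat.factorization_mul Nat.card_pos.ne' (pow_ne_zero _ hp.ne_zero),
    Nat.factorization_pow]
  have h5 : (Nat.factorization p) p = 1 := hp.factorization_self
  simp only [Finsupp.coe_add, Finsupp.coe_smul, Pi.add_apply, Pi.smul_apply, h5, smul_eq_mul,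
    mul_one]
  have h6 : blockDefect p B ≤ (Nat.card G).factorization p := Nat.sub_le _ _
  omega

omit [Fintype G] in
theorem card_stabilizer_coset [Finite G] (P : Subgroup G) (c : G) :
    Nat.card (MulAction.stabilizer P (c : G ⧸ P)) = Nat.card (interConj P c) := by
  have h1 : MulAction.stabilizer P (c : G ⧸ P) = (interConj P c).subgroupOf P := by
    ext u
    rw [MulAction.mem_stabilizer_iff, Subgroup.mem_subgroupOf, mem_interConj]
    have h2 : u • (c : G ⧸ P) = (((u : G) * c : G) : G ⧸ P) := rfl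
    rw [h2, QuotientGroup.eq]
    have h3 : ((u : G) * c)⁻¹ * c = (c⁻¹ * u * c)⁻¹ := by group
    rw [h3, inv_mem_iff]
    exact ⟨fun h => ⟨u.2, h⟩, fun h => h.2⟩
  rw [h1]
  exact Nat.card_congr (Subgroup.subgroupOfEquivOfLe inf_le_left).toEquiv

/-- Key step of Green's theorem: a `p`-regular `z` with `P ∩ z P z⁻¹` of order `p ^ d`,
centralising `z` and of maximal order among the `p`-subgroups centralising `z`. -/
theorem green_aux [Fact p.Prime] (hM : IsPModular p M) (B : Set (IrrCharacter G))
    (hB : IsPBlock M B) (P : Sylow p G) :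
    ∃ z : G, ¬ p ∣ orderOf z ∧
      Nat.card (interConj (P : Subgroup G) z) = p ^ blockDefect p B ∧
      (∀ u ∈ interConj (P : Subgroup G) z, u * z = z * u) ∧
      ∀ Q' : Subgroup G, IsPGroup p Q' → (∀ u ∈ Q', u * z = z * u) →
        Nat.card Q' ≤ p ^ blockDefect p B := by
  classical
  have hp := hM.1
  have : Fintype (P : Subgroup G) := Fintype.ofFinite _
  have : Fintype (G ⧸ (P : Subgroup G)) := Fintype.ofFinite _
  set d := blockDefect p B with hd
  set a := (Nat.card G).factorization p with ha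
  have hda : d ≤ a := Nat.sub_le _ _
  have hp0 : (p : ℂ) ≠ 0 := by exact_mod_cast hp.ne_zero
  set φ : G → ℂ := blockCoeff B with hφ
  set φ' : G → ℂ := fun x => blockCoeff B x⁻¹ with hφ'
  have hφc : IsClassFunction G φ := blockCoeff_classFunction B
  have hφ'c : IsClassFunction G φ' := by
    intro g h
    have : (h * g * h⁻¹)⁻¹ = h * g⁻¹ * h⁻¹ := by group
    simp only [hφ', this]
    exact blockCoeff_classFunction B g⁻¹ h
  have hV : ∀ (z : G) (Q : Subgroup G), IsPGroup p Q → (∀ u ∈ Q, u * z = z * u) →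
      MemLocalRing M (φ z * (p : ℂ) ^ d / (Nat.card Q : ℂ)) :=
    fun z Q hQ hz => blockCoeff_mul_pow_div_card hM B hB z Q hQ hz
  have hV' : ∀ (z : G) (Q : Subgroup G), IsPGroup p Q → (∀ u ∈ Q, u * z = z * u) →
      MemLocalRing M (φ' z * (p : ℂ) ^ d / (Nat.card Q : ℂ)) := by
    intro z Q hQ hz
    apply blockCoeff_mul_pow_div_card hM B hB z⁻¹ Q hQ
    intro u hu
    have h3 : Commute u z := hz u hu
    exact h3.inv_right.eq
  set F : G → ℂ := fun c => cosetSum (P : Subgroup G) φ' c * cosetSum (P : Subgroup G) φ c with hF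
  have hFr : ∀ (c : G) (v : (P : Subgroup G)), F (c * v) = F c := by
    intro c v
    simp only [hF, cosetSum_mul_right]
  have hFl : ∀ (c : G) (u : (P : Subgroup G)), F (u * c) = F c := by
    intro c u
    simp only [hF, cosetSum_mul_left _ hφc, cosetSum_mul_left _ hφ'c]
  have hFout : ∀ c : G, F ((c : G ⧸ (P : Subgroup G)).out) = F c := by
    intro c
    obtain ⟨v, hv⟩ := QuotientGroup.mk_out_eq_mul (P : Subgroup G) c
    rw [hv, hFr]
  have hsum : ∑ q : G ⧸ (P : Subgroup G), F q.out = blockCoeff B 1 := by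
    have h1 := sum_comp_mk (P : Subgroup G) (fun q => F q.out)
    simp only [hFout] at h1
    rw [sum_cosetSum_blockCoeff hM B hB (P : Subgroup G) P.isPGroup'] at h1
    have hP0 : (Nat.card (P : Subgroup G) : ℂ) ≠ 0 := by exact_mod_cast Nat.card_pos.ne'
    exact (mul_left_cancel₀ hP0 h1).symm
  have hunit := not_memLocalIdeal_blockCoeff_one hM B hB
  rw [← hsum] at hunit
  -- find the double coset
  obtain ⟨q, hq⟩ : ∃ q : G ⧸ (P : Subgroup G), ¬ MemLocalIdeal M
      ((Nat.card (MulAction.orbit (P : Subgroup G) q) : ℂ) * F q.out / (p : ℂ) ^ (a - d)) := by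
    by_contra hcon
    push Not at hcon
    apply hunit
    apply sum_orbit_induction (Γ := (P : Subgroup G)) (fun q : G ⧸ (P : Subgroup G) => F q.out) _
      (fun t => MemLocalIdeal M (t / (p : ℂ) ^ (a - d)))
    · rw [zero_div]; exact memLocalIdeal_zero hM
    · intro s t hs ht
      rw [add_div]; exact memLocalIdeal_add hM hs ht
    · exact hcon
    · intro u q
      obtain ⟨c, rfl⟩ := QuotientGroup.mk_surjective q
      have h2 : u • (c : G ⧸ (P : Subgroup G)) = (((u : G) * c : G) : G ⧸ (P : Subgroup G)) := rfl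
      show F (u • (c : G ⧸ (P : Subgroup G))).out = F (c : G ⧸ (P : Subgroup G)).out
      rw [h2, hFout, hFout, hFl]
  set c := q.out with hc
  have hqc : (c : G ⧸ (P : Subgroup G)) = q := QuotientGroup.out_eq' q
  set Q := interConj (P : Subgroup G) c with hQ
  have hQp : IsPGroup p Q := P.isPGroup'.to_le inf_le_left
  obtain ⟨j, hj⟩ := IsPGroup.iff_card.1 hQp
  have horb : Nat.card (MulAction.orbit (P : Subgroup G) q) * p ^ j = p ^ a := by
    rw [← hj, hQ, ← card_stabilizer_coset, hqc, ← P.card_eq_multiplicity,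
      Nat.card_congr (MulAction.orbitEquivQuotientStabilizer _ q),
      ← Subgroup.card_eq_card_quotient_mul_card_subgroup]
  have horbC : (Nat.card (MulAction.orbit (P : Subgroup G) q) : ℂ) = (p : ℂ) ^ a / (p : ℂ) ^ j := by
    have : (Nat.card (MulAction.orbit (P : Subgroup G) q) : ℂ) * (p : ℂ) ^ j = (p : ℂ) ^ a := by
      exact_mod_cast horb
    rw [← this]; field_simp
  set X₁ := cosetSum (P : Subgroup G) φ c with hX₁
  set X₂ := cosetSum (P : Subgroup G) φ' c with hX₂
  have hY₁ : MemLocalRing M (X₁ * (p : ℂ) ^ d / (p : ℂ) ^ j) := by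
    have := coset_sum_memLocalRing hM (P : Subgroup G) P.isPGroup' c d φ hφc hV
    rw [← hQ, hj] at this
    exact_mod_cast this
  have hY₂ : MemLocalRing M (X₂ * (p : ℂ) ^ d / (p : ℂ) ^ j) := by
    have := coset_sum_memLocalRing hM (P : Subgroup G) P.isPGroup' c d φ' hφ'c hV'
    rw [← hQ, hj] at this
    exact_mod_cast this
  have hX₁R : MemLocalRing M X₁ := memLocalRing_sum hM _ _ (fun w _ => osima hM B hB _)
  have hX₂R : MemLocalRing M X₂ := memLocalRing_sum hM _ _ (fun w _ => osima hM B hB _)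
  have hpad : (p : ℂ) ^ a = (p : ℂ) ^ (a - d) * (p : ℂ) ^ d := by
    rw [← pow_add, Nat.sub_add_cancel hda]
  have e1 : (Nat.card (MulAction.orbit (P : Subgroup G) q) : ℂ) * F c / (p : ℂ) ^ (a - d) =
      X₁ * (X₂ * (p : ℂ) ^ d / (p : ℂ) ^ j) := by
    have hFc : F c = X₂ * X₁ := rfl
    rw [horbC, hpad, hFc]
    field_simp
  have e2 : (Nat.card (MulAction.orbit (P : Subgroup G) q) : ℂ) * F c / (p : ℂ) ^ (a - d) =
      (X₁ * (p : ℂ) ^ d / (p : ℂ) ^ j) * X₂ := by
    have hFc : F c = X₂ * X₁ := rfl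
    rw [horbC, hpad, hFc]
    field_simp
  have hX₁u : ¬ MemLocalIdeal M X₁ := by
    intro h
    apply hq
    rw [e1]
    exact memLocalIdeal_mul_right hM h hY₂
  have hY₁u : ¬ MemLocalIdeal M (X₁ * (p : ℂ) ^ d / (p : ℂ) ^ j) := by
    intro h
    apply hq
    rw [e2]
    exact memLocalIdeal_mul_right hM h hX₂R
  have hjd : j = d := by
    rcases lt_trichotomy j d with h | h | h
    · exfalso
      apply hY₁u
      have : X₁ * (p : ℂ) ^ d / (p : ℂ) ^ j = X₁ * (p : ℂ) ^ (d - j) := by
        have : (p : ℂ) ^ d = (p : ℂ) ^ (d - j) * (p : ℂ) ^ j := by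
          rw [← pow_add, Nat.sub_add_cancel h.le]
        rw [this]; field_simp
      rw [this]
      apply memLocalIdeal_mul_left hM hX₁R
      rw [memLocalIdeal_pow_iff hM (memLocalRing_natCast hM p) (by omega)]
      exact memLocalIdeal_p hM
    · exact h
    · exfalso
      apply hX₁u
      have : X₁ = (X₁ * (p : ℂ) ^ d / (p : ℂ) ^ j) * (p : ℂ) ^ (j - d) := by
        have : (p : ℂ) ^ j = (p : ℂ) ^ (j - d) * (p : ℂ) ^ d := by
          rw [← pow_add, Nat.sub_add_cancel h.le]
        rw [this]; field_simp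
      rw [this]
      apply memLocalIdeal_mul_left hM hY₁
      rw [memLocalIdeal_pow_iff hM (memLocalRing_natCast hM p) (by omega)]
      exact memLocalIdeal_p hM
  obtain ⟨w, hw1, hw2⟩ := exists_fixed_of_coset_sum hM (P : Subgroup G) P.isPGroup' c φ hφc
    (fun z => osima hM B hB z) hX₁u
  have hQz : interConj (P : Subgroup G) (c * w) = Q := by
    ext u
    rw [hQ, mem_interConj, mem_interConj]
    have h3 : (c * (w : G))⁻¹ * u * (c * w) = (w : G)⁻¹ * (c⁻¹ * u * c) * w := by group
    rw [h3]
    constructor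
    · rintro ⟨h1, h2⟩
      refine ⟨h1, ?_⟩
      have := (P : Subgroup G).mul_mem ((P : Subgroup G).mul_mem w.2 h2)
        ((P : Subgroup G).inv_mem w.2)
      simpa [mul_assoc] using this
    · rintro ⟨h1, h2⟩
      exact ⟨h1, (P : Subgroup G).mul_mem ((P : Subgroup G).mul_mem
        ((P : Subgroup G).inv_mem w.2) h2) w.2⟩
  refine ⟨c * w, ?_, ?_, ?_, ?_⟩
  · intro hs
    apply hw2
    rw [hφ, blockCoeff_eq_zero_of_singular hM B hB hs]
    exact memLocalIdeal_zero hM
  · rw [hQz, hj, hjd]
  · rw [hQz]; exact hw1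
  · intro Q' hQ' hz
    have h1 := hV (c * w) Q' hQ' hz
    obtain ⟨i, hi⟩ := IsPGroup.iff_card.1 hQ'
    rw [hi]
    apply Nat.pow_le_pow_right hp.pos
    by_contra hlt
    push Not at hlt
    apply hw2
    have : φ (c * w) = (φ (c * w) * (p : ℂ) ^ d / (Nat.card Q' : ℂ)) * (p : ℂ) ^ (i - d) := by
      rw [hi]
      push_cast
      have : (p : ℂ) ^ i = (p : ℂ) ^ (i - d) * (p : ℂ) ^ d := by
        rw [← pow_add, Nat.sub_add_cancel hlt.le]
      rw [this]; field_simp
    rw [this]
    apply memLocalIdeal_mul_left hM h1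
    rw [memLocalIdeal_pow_iff hM (memLocalRing_natCast hM p) (by omega)]
    exact memLocalIdeal_p hM

end Cfsg.Agent.Lib.Helper84
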