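import Cfsg.Agent.Lib.Helper84.PPrimeDeg
import Cfsg.Agent.Lib.Helper3.TateOp
import Cfsg.Agent.Lib.Helper2.PResidual

/-!
# A normal complement to a Sylow normalizer

`exists_normal_complement`: `P` Sylow in `G`, `L ⊴ G` with `P ≤ L`, `N_L(P) = P`, and `K₀ ⊴ G` with
`K₀ ∩ P = P'`: then `N_G(P)` has a normal complement in `G`.
-/

set_option autoImplicit false
open Cfsg
open scoped commutatorElement

namespace Cfsg.Agent.Lib.Helper84

variable {G : Type*} [Group G] [Finite G] {p : ℕ} [Fact p.Prime]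

/-- two Sylow subgroups of `G` inside `H` are conjugate in `H` -/
theorem exists_smul_eq_of_le (P Q : Sylow p G) (H : Subgroup G) (hP : (P : Subgroup G) ≤ H)
    (hQ : (Q : Subgroup G) ≤ H) : ∃ h ∈ H, h • Q = P := by
  obtain ⟨h, hh⟩ := MulAction.exists_smul_eq H (Q.subtype hQ) (P.subtype hP)
  rw [Sylow.smul_subtype] at hh
  exact ⟨h, h.2, Sylow.subtype_injective hh⟩

/-- Tate: if the focal subgroup of a Sylow subgroup is its derived subgroup, there is a normal
`p`-complement. -/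
theorem npc_of_focal (P : Sylow p G)
    (h : (P : Subgroup G).focalSubgroup ≤ ⁅(P : Subgroup G), (P : Subgroup G)⁆) :
    HasNormalPComplement p G := by
  have hfoc : (P : Subgroup G) ⊓ commutator G ≤ ⁅(P : Subgroup G), (P : Subgroup G)⁆ := by
    rw [inf_comm, Subgroup.commutator_inf_eq_focalSubgroup]
    exact h
  have h1 := Cfsg.Agent.Lib.Helper3.pResidualOf_eq_of_focal_le P (P : Subgroup G) le_rfl hfoc
  have h2 : Cfsg.pResidual p (P : Subgroup G) = ⊥ := by
    unfold Cfsg.pResidual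
    rw [Subgroup.closure_eq_bot_iff]
    intro x hx
    have hx' : Nat.Coprime (orderOf x) p := hx
    obtain ⟨k, hk⟩ := P.2 x
    have h2 : orderOf x ∣ p ^ k := orderOf_dvd_of_pow_eq_one hk
    have h3 : orderOf x = 1 :=
      Nat.eq_one_of_dvd_coprimes (Nat.Coprime.pow_right k hx') dvd_rfl h2
    exact orderOf_eq_one_iff.mp h3
  rw [Cfsg.Agent.Lib.Helper2.hasNormalPComplement_iff_inf_pResidual P, inf_comm, ← h1]
  unfold Cfsg.pResidualOf
  rw [h2, Subgroup.map_bot]

/-- Burnside-type fusion modulo `K₀`. -/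
theorem fusion_mod (P : Sylow p G) (K0 L : Subgroup G) [K0.Normal] [L.Normal]
    (hPL : (P : Subgroup G) ≤ L)
    (hNL : Subgroup.normalizer ((P : Subgroup G) : Set G) ⊓ L ≤ (P : Subgroup G))
    (hPK : ⁅(P : Subgroup G), (P : Subgroup G)⁆ ≤ K0) {x u : G} (hx : x ∈ (P : Subgroup G))
    (hu : u ∈ L) (hy : u * x * u⁻¹ ∈ (P : Subgroup G)) : x⁻¹ * (u * x * u⁻¹) ∈ K0 := by
  set y := u * x * u⁻¹ with hydef
  set f := QuotientGroup.mk' K0 with hf
  let C : Subgroup G := (Subgroup.centralizer {f y}).comap f ⊓ L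
  have hcomm : ∀ a b : G, ⁅a, b⁆ ∈ K0 → f b * f a = f a * f b := by
    intro a b hab
    have h1 : f ⁅a, b⁆ = 1 := (QuotientGroup.eq_one_iff _).2 hab
    rw [commutatorElement_def, map_mul, map_mul, map_mul, map_inv, map_inv] at h1
    have h2 : f a * f b = f b * f a := by
      have := congrArg (fun t => t * f b * f a) h1
      simpa [mul_assoc] using this
    exact h2.symm
  have hPC : (P : Subgroup G) ≤ C := by
    intro c hc
    refine ⟨?_, hPL hc⟩
    show f c ∈ Subgroup.centralizer {f y}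
    rw [Subgroup.mem_centralizer_singleton_iff]
    exact (hcomm c y (hPK (Subgroup.commutator_mem_commutator hc hy))).symm
  have huPC : ((u • P : Sylow p G) : Subgroup G) ≤ C := by
    intro c hc
    rw [Sylow.coe_subgroup_smul, Subgroup.mem_pointwise_smul_iff_inv_smul_mem] at hc
    have hc' : u⁻¹ * c * u ∈ (P : Subgroup G) := by
      simpa [MulAut.smul_def, MulAut.conj_apply] using hc
    have hcL : c ∈ L := by
      have h1 := hPL hc'
      have h2 := Subgroup.Normal.conj_mem (inferInstance : L.Normal) _ h1 u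
      simpa [mul_assoc] using h2
    refine ⟨?_, hcL⟩
    show f c ∈ Subgroup.centralizer {f y}
    rw [Subgroup.mem_centralizer_singleton_iff]
    apply (hcomm c y _).symm
    have h1 : ⁅u⁻¹ * c * u, x⁆ ∈ K0 := hPK (Subgroup.commutator_mem_commutator hc' hx)
    have h2 := Subgroup.Normal.conj_mem (inferInstance : K0.Normal) _ h1 u
    have h3 : u * ⁅u⁻¹ * c * u, x⁆ * u⁻¹ = ⁅c, y⁆ := by
      rw [hydef, commutatorElement_def, commutatorElement_def]
      group
    rwa [h3] at h2
  obtain ⟨c, hcC, hc⟩ := exists_smul_eq_of_le P (u • P) C hPC huPC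
  rw [← mul_smul, Sylow.smul_eq_iff_mem_normalizer] at hc
  have hv : c * u ∈ (P : Subgroup G) := hNL ⟨hc, mul_mem hcC.2 hu⟩
  -- modulo K0
  have e1 : f (c * u) * f x = f x * f (c * u) :=
    (hcomm (c * u) x (hPK (Subgroup.commutator_mem_commutator hv hx))).symm
  have e2 : f c * f y = f y * f c := by
    have : f c ∈ Subgroup.centralizer {f y} := hcC.1
    rw [Subgroup.mem_centralizer_singleton_iff] at this
    exact this
  have e3 : f y = f u * f x * (f u)⁻¹ := by
    rw [hydef, map_mul, map_mul, map_inv]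
  have e4 : f x = f y := by
    have h1 : f c * f y * (f c)⁻¹ = f y := by rw [e2, mul_inv_cancel_right]
    have h2 : f c * f y * (f c)⁻¹ = f (c * u) * f x * (f (c * u))⁻¹ := by
      rw [e3, map_mul, mul_inv_rev]
      group
    rw [← h1, h2, e1, mul_inv_cancel_right]
  rw [← QuotientGroup.eq]
  exact e4

theorem exists_normal_complement (P : Sylow p G) (K0 L : Subgroup G) [K0.Normal] [L.Normal]
    (hPL : (P : Subgroup G) ≤ L)
    (hNL : Subgroup.normalizer ((P : Subgroup G) : Set G) ⊓ L ≤ (P : Subgroup G))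
    (hPK : ⁅(P : Subgroup G), (P : Subgroup G)⁆ ≤ K0)
    (hKP : K0 ⊓ (P : Subgroup G) ≤ ⁅(P : Subgroup G), (P : Subgroup G)⁆) :
    ∃ K : Subgroup G, K.Normal ∧ K ⊔ Subgroup.normalizer ((P : Subgroup G) : Set G) = ⊤ ∧
      K ⊓ Subgroup.normalizer ((P : Subgroup G) : Set G) = ⊥ := by
  set P1 : Sylow p L := P.subtype hPL with hP1
  have hmap : ((P1 : Subgroup L)).map L.subtype = (P : Subgroup G) := by
    rw [hP1, Sylow.coe_subtype, Subgroup.map_subgroupOf_eq_of_le hPL]
  have hfoc : (P1 : Subgroup L).focalSubgroup ≤ ⁅(P1 : Subgroup L), (P1 : Subgroup L)⁆ := by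
    rw [Subgroup.focalSubgroup_def, Subgroup.closure_le]
    rintro g ⟨hg, x, hx, u, hgxu⟩
    have hgP : (g : G) ∈ (P : Subgroup G) := hg
    have hxP : (x : G) ∈ (P : Subgroup G) := hx
    have hg' : (g : G) = (x : G) * u * (x : G)⁻¹ * (u : G)⁻¹ := by
      rw [hgxu, commutatorElement_def]
      simp
    have hy : (u : G) * (x : G)⁻¹ * (u : G)⁻¹ ∈ (P : Subgroup G) := by
      have : (u : G) * (x : G)⁻¹ * (u : G)⁻¹ = (x : G)⁻¹ * g := by
        rw [hg']; group
      rw [this]
      exact mul_mem (inv_mem hxP) hgP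
    have h1 := fusion_mod P K0 L hPL hNL hPK (inv_mem hxP) u.2 hy
    have h2 : (g : G) ∈ K0 := by
      have : (g : G) = ((x : G)⁻¹)⁻¹ * ((u : G) * (x : G)⁻¹ * (u : G)⁻¹) := by
        rw [hg']; group
      rw [this]
      exact h1
    have h3 := hKP ⟨h2, hgP⟩
    rw [← hmap, ← Subgroup.map_commutator] at h3
    obtain ⟨g', hg'', hgg⟩ := h3
    have : g' = g := Subtype.ext hgg
    rw [← this]
    exact hg''
  obtain ⟨C0, hC0n, hC0c, hC0p, hC0m⟩ :=
    Cfsg.Agent.Lib.Helper40.HasNormalPComplement.exists_normal (npc_of_focal P1 hfoc)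
  have hcompl := Cfsg.Agent.Lib.Helper40.isComplement'_sylow_of_coprime_of_isPGroup C0 hC0c hC0p P1
  have hKc : (Nat.card (C0.map L.subtype)).Coprime p := by
    rw [Subgroup.card_map_of_injective L.subtype_injective]
    exact hC0c
  refine ⟨C0.map L.subtype, ⟨?_⟩, ?_, ?_⟩
  · rintro _ ⟨c, hc, rfl⟩ g
    have hT : g * (c : G) * g⁻¹ ∈ L := Subgroup.Normal.conj_mem inferInstance _ c.2 g
    refine ⟨⟨_, hT⟩, ?_, rfl⟩
    have hc' := (hC0m c).1 hc
    show (⟨_, hT⟩ : L) ∈ C0
    rw [hC0m, ← Subgroup.orderOf_coe]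
    rw [← Subgroup.orderOf_coe] at hc'
    have : orderOf (g * (c : G) * g⁻¹) = orderOf (c : G) := (MulAut.conj g).orderOf_eq _
    show (orderOf (g * (c : G) * g⁻¹)).Coprime p
    rw [this]
    exact hc'
  · have h1 : C0.map L.subtype ⊔ (P : Subgroup G) = L := by
      rw [← hmap, ← Subgroup.map_sup, hcompl.sup_eq_top, ← MonoidHom.range_eq_map, Subgroup.range_subtype]
    have h2 := Sylow.normalizer_sup_eq_top' P hPL
    have h3 : (P : Subgroup G) ≤ Subgroup.normalizer ((P : Subgroup G) : Set G) :=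
      Subgroup.le_normalizer
    have h4 : L ≤ C0.map L.subtype ⊔ Subgroup.normalizer ((P : Subgroup G) : Set G) :=
      h1.ge.trans (sup_le le_sup_left (h3.trans le_sup_right))
    rw [eq_top_iff, ← h2]
    exact sup_le le_sup_right h4
  · rw [eq_bot_iff]
    rintro z ⟨hzK, hzN⟩
    have hzL : z ∈ L := Subgroup.map_subtype_le _ hzK
    have hzP := hNL ⟨hzN, hzL⟩
    exact eq_one_of_mem_pgroup_of_coprime P.2 hKc hzP hzK

end Cfsg.Agent.Lib.Helper84
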